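-- Team project JR (S3206, helper35): package [PSL] (helper60).
import Mathlib
import Cfsg.Agent.Lib.Helper35.JR.Defs

/-!
# JR [PSL]: the two facts on `PSL₂(F)` with abelian Sylow 2-subgroups, from [SYL4], [KEY0], [FODD]
-/

set_option autoImplicit false

namespace Cfsg.Agent.Lib.Helper60.JR

open Cfsg.Agent.Lib.Helper35.JR

universe u

/-- In a finite field of odd cardinality `2 ≠ 0`. -/
theorem two_ne_zero_of_odd_card (F : Type u) [Field F] [Fintype F] (hodd : Odd (Fintype.card F)) :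
    (2 : F) ≠ 0 := by
  intro h
  have h1 : ringChar F = 2 := by
    apply CharP.ringChar_of_prime_eq_zero Nat.prime_two
    exact_mod_cast h
  have h2 := FiniteField.even_card_of_char_two h1
  rcases hodd with ⟨m, hm⟩
  omega

/-- `-1` is a sum of two squares in a finite field. -/
theorem exists_sq_add_sq_neg_one (F : Type u) [Field F] [Fintype F] :
    ∃ a b : F, a ^ 2 + b ^ 2 = -1 := by
  obtain ⟨p, hp⟩ := CharP.exists F
  haveI := hp
  haveI : NeZero p := ⟨by
    intro h0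
    subst h0
    haveI : CharZero F := CharP.charP_to_charZero F
    exact not_finite F⟩
  obtain ⟨a0, b0, h0⟩ := CharP.sq_add_sq F p (-1)
  exact ⟨(a0 : F), (b0 : F), by simpa using h0⟩

/-- [PSL] from [SYL4], [KEY0], [FODD]. -/
theorem pkgPSL : PkgSyl4.{u} → PkgKey0.{u} → PkgFodd.{u} → PkgPSL.{u} := by
  intro hSyl hKey hFodd F _ _ hodd _ hab
  have h2 : (2 : F) ≠ 0 := two_ne_zero_of_odd_card F hodd
  obtain ⟨a, b, hab'⟩ := exists_sq_add_sq_neg_one F
  have hS := hSyl F h2 a b hab' hab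
  have hσ := hFodd F hodd (fun P x hx => (hS P).2.1 x hx)
  refine ⟨fun P => ⟨(hS P).1, (hS P).2.1⟩, ?_⟩
  intro α k hαk P hfix
  obtain ⟨-, -, g, hg⟩ := hS P
  set d : MulAut (Matrix.ProjectiveSpecialLinearGroup (Fin 2) F) := MulAut.conj g⁻¹ with hd
  have hα' : (d * α * d⁻¹) ^ (2 ^ k) = 1 := by
    rw [conj_pow, hαk, mul_one, mul_inv_cancel]
  have happ : ∀ x, (d * α * d⁻¹) x = g⁻¹ * α (g * x * g⁻¹) * g := by
    intro x
    simp [hd, MulAut.mul_apply, MulAut.conj_apply, MulAut.conj_inv_apply]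
  have hV : ∀ y ∈ V0 a b hab', (d * α * d⁻¹) y = y := by
    intro y hy
    have h1 : g * y * g⁻¹ ∈ (P : Subgroup (Matrix.ProjectiveSpecialLinearGroup (Fin 2) F)) := by
      rw [hg]
      have h3 : g⁻¹ * (g * y * g⁻¹) * g = y := by group
      rw [h3]; exact hy
    rw [happ, hfix _ h1]
    group
  have hA : (d * α * d⁻¹) (pA F) = pA F := hV _ (by simp [V0])
  have hB : (d * α * d⁻¹) (pB a b hab') = pB a b hab' := hV _ (by simp [V0])
  obtain ⟨v, hv, hvx⟩ := hKey F h2 a b hab' hσ (d * α * d⁻¹) k hα' hA hB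
  refine ⟨g * v * g⁻¹, ?_, ?_⟩
  · rw [hg]
    have h3 : g⁻¹ * (g * v * g⁻¹) * g = v := by group
    rw [h3]; exact hv
  · intro x
    have h4 := hvx (g⁻¹ * x * g)
    rw [happ] at h4
    have h5 : g * (g⁻¹ * x * g) * g⁻¹ = x := by group
    rw [h5] at h4
    have h6 : α x = g * (g⁻¹ * α x * g) * g⁻¹ := by group
    rw [h6, h4]
    group

end Cfsg.Agent.Lib.Helper60.JR
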